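import Cfsg.Agent.AutPSU.Lang

/-!
Centralizers and class counts of field automorphisms of `PSU_n(q)`.
-/

set_option autoImplicit false
set_option linter.unusedSectionVars false

namespace Cfsg.Agent.AutPSU

open Matrix Cfsg.Agent.Uni AutLie AutPSL

variable {F : Type*} [Field F] [Fintype F] {q : ℕ} {n : ℕ}

/-- elements commuting with the standard field automorphism -/
theorem commute_phiU_iff (hF : Fintype.card F = q ^ 2) (hn : 3 ≤ n) (σ : RingAut F) (hodd : Odd (orderOf σ))
    (g : GU n F q) :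
    diagU n F q g * cAutU 1 σ = cAutU 1 σ * diagU n F q g ↔
      ∃ b : U1 F q, mapGU σ (g * scU n F q b) = g * scU n F q b := by
  have hfin := finite_ringAut (F := F)
  have hr : 0 < orderOf σ := orderOf_pos σ
  rw [phiU_comm, mul_left_inj, eq_comm, diagU_eq_iff hF hn]
  constructor
  · rintro ⟨c, hc⟩
    have hk : ∀ k, mapGU (σ ^ k : RingAut F) g = g * scU n F q (twNorm (uU1 σ) c k) := by
      intro k
      induction k with
      | zero =>
        simp only [twNorm, map_one, mul_one]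
        rw [pow_zero, mapGU_one]
      | succ k ih =>
        rw [← mapGU_iterate, Function.iterate_succ_apply', mapGU_iterate, ih, map_mul, hc, mapGU_scU, mul_assoc,
          ← map_mul, twNorm_succ]
    have h1 := hk (orderOf σ)
    rw [pow_orderOf_eq_one, mapGU_one] at h1
    have h2 : twNorm (uU1 σ) c (orderOf σ) = 1 := by
      apply scU_injective (F := F) (n := n) (q := q) (by omega)
      rw [map_one]
      exact (left_eq_mul.1 h1)
    obtain ⟨b, hb⟩ := hilbert90_U1 hF σ hodd c h2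
    refine ⟨b, ?_⟩
    rw [map_mul, hc, mapGU_scU, mul_assoc, ← map_mul, hb, inv_mul_cancel_right]
  · rintro ⟨b, hb⟩
    refine ⟨b * (uU1 σ b)⁻¹, ?_⟩
    rw [map_mul, mapGU_scU] at hb
    rw [eq_mul_inv_of_mul_eq hb, ← map_inv, mul_assoc, ← map_mul]

section emb

variable {K : Type*} [Field K] [Fintype K] {q₀ : ℕ}

theorem emb_pow (hK : Fintype.card K = q₀ ^ 2) (j : K →+* F) {r : ℕ} (hr : Odd r) (hq : q = q₀ ^ r) (x : K) :
    (j x) ^ q = j (x ^ q₀) := by
  obtain ⟨s, rfl⟩ := hr
  rw [← map_pow, hq]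
  congr 1
  have h : ∀ s : ℕ, x ^ (q₀ ^ (2 * s + 1)) = x ^ q₀ := by
    intro s
    induction s with
    | zero => rw [mul_zero, zero_add, pow_one]
    | succ s ih =>
      have e : 2 * (s + 1) + 1 = 2 + (2 * s + 1) := by ring
      rw [e, pow_add, pow_mul, ← hK, FiniteField.pow_card, ih]
  exact h s

theorem pres_emb_iff (hF : Fintype.card F = q ^ 2) (hK : Fintype.card K = q₀ ^ 2) (j : K →+* F) {r : ℕ} (hr : Odd r)
    (hq : q = q₀ ^ r) (M : Matrix (Fin n) (Fin n) K) : Pres q (M.map j) ↔ Pres q₀ M := by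
  rw [pres_iff_transpose_mul hF, pres_iff_transpose_mul hK]
  have h1 : (M.map j)ᵀ * (M.map j).map (conjHom hF) = (Mᵀ * M.map (conjHom hK)).map j := by
    rw [Matrix.map_mul]
    congr 1
    ext a b
    simp only [Matrix.map_apply, conjHom_apply]
    exact emb_pow hK j hr hq _
  rw [h1]
  have h2 : (1 : Matrix (Fin n) (Fin n) F) = (1 : Matrix (Fin n) (Fin n) K).map j :=
    (Matrix.map_one _ (map_zero j) (map_one j)).symm
  rw [h2]
  exact (Matrix.map_injective j.injective).eq_iff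

/-- the embedding of unitary groups -/
noncomputable def embGU (hF : Fintype.card F = q ^ 2) (hK : Fintype.card K = q₀ ^ 2) (j : K →+* F) {r : ℕ} (hr : Odd r)
    (hq : q = q₀ ^ r) (n : ℕ) : GU n K q₀ →* GU n F q where
  toFun g := ⟨Matrix.GeneralLinearGroup.map j (g : GL (Fin n) K), (pres_emb_iff hF hK j hr hq _).2 (GU_pres g)⟩
  map_one' := Subtype.ext (map_one _)
  map_mul' _ _ := Subtype.ext (map_mul _ _ _)

theorem map_injective_GL {m : Type*} [Fintype m] [DecidableEq m] (j : K →+* F) :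
    Function.Injective (Matrix.GeneralLinearGroup.map j : GL m K →* GL m F) := by
  intro a b hab
  apply Units.ext
  ext i k
  apply j.injective
  exact congrArg (fun M : GL m F => (M : Matrix m m F) i k) hab

/-- the embedding of norm one groups -/
def embU1 (hK : Fintype.card K = q₀ ^ 2) (j : K →+* F) {r : ℕ} (hr : Odd r) (hq : q = q₀ ^ r) :
    U1 K q₀ →* U1 F q where
  toFun c := ⟨Units.map (j : K →* F) (c : Kˣ), by
    rw [mem_U1]
    have h := mem_U1.1 c.2
    rw [pow_succ] at h ⊢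
    have e : ((Units.map (j : K →* F) (c : Kˣ) : Fˣ) : F) = j ((c : Kˣ) : K) := rfl
    rw [e, emb_pow hK j hr hq, ← map_mul, h, map_one]⟩
  map_one' := Subtype.ext (map_one _)
  map_mul' _ _ := Subtype.ext (map_mul _ _ _)

theorem embU1_injective (hK : Fintype.card K = q₀ ^ 2) (j : K →+* F) {r : ℕ} (hr : Odd r) (hq : q = q₀ ^ r) :
    Function.Injective (embU1 (F := F) hK j hr hq) := by
  intro a b h
  apply Subtype.ext
  exact Units.map_injective j.injective (congrArg Subtype.val h)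

theorem embGU_scU (hF : Fintype.card F = q ^ 2) (hK : Fintype.card K = q₀ ^ 2) (j : K →+* F) {r : ℕ} (hr : Odd r)
    (hq : q = q₀ ^ r) (c : U1 K q₀) :
    embGU hF hK j hr hq n (scU n K q₀ c) = scU n F q (embU1 hK j hr hq c) :=
  Subtype.ext (map_scalar j (c : Kˣ))

theorem detHom_embGU (hF : Fintype.card F = q ^ 2) (hK : Fintype.card K = q₀ ^ 2) (j : K →+* F) {r : ℕ} (hr : Odd r)
    (hq : q = q₀ ^ r) (g : GU n K q₀) :
    detHom hF n (embGU hF hK j hr hq n g) = embU1 hK j hr hq (detHom hK n g) := by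
  apply Subtype.ext
  apply Units.ext
  exact (RingHom.map_det j ((g : GL (Fin n) K) : Matrix (Fin n) (Fin n) K)).symm

theorem exists_of_fixedU (hF : Fintype.card F = q ^ 2) (hK : Fintype.card K = q₀ ^ 2) (j : K →+* F) {r : ℕ} (hr : Odd r)
    (hq : q = q₀ ^ r) (σ : F ≃+* F) (hj : ∀ x, σ x = x ↔ x ∈ Set.range j) (g : GU n F q) (hg : mapGU σ g = g) :
    ∃ h : GU n K q₀, embGU hF hK j hr hq n h = g := by
  obtain ⟨h, hh⟩ := exists_of_fixed j σ hj (g : GL (Fin n) F) (congrArg Subtype.val hg)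
  have h1 : Pres q₀ (h : Matrix (Fin n) (Fin n) K) := by
    rw [← pres_emb_iff hF hK j hr hq]
    have : (h : Matrix (Fin n) (Fin n) K).map j = ((g : GL (Fin n) F) : Matrix (Fin n) (Fin n) F) := by
      rw [← hh]; rfl
    rw [this]
    exact GU_pres g
  exact ⟨⟨h, h1⟩, Subtype.ext hh⟩

theorem mapGU_embGU (hF : Fintype.card F = q ^ 2) (hK : Fintype.card K = q₀ ^ 2) (j : K →+* F) {r : ℕ} (hr : Odd r)
    (hq : q = q₀ ^ r) (σ : F ≃+* F) (hj : ∀ x, σ x = x ↔ x ∈ Set.range j) (h : GU n K q₀) :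
    mapGU σ (embGU hF hK j hr hq n h) = embGU hF hK j hr hq n h :=
  Subtype.ext (mapGL_map j σ hj (h : GL (Fin n) K))

/-- the centralizer of the standard field automorphism in `Inndiag` -/
theorem cent_phiU (hF : Fintype.card F = q ^ 2) (hn : 3 ≤ n) (hK : Fintype.card K = q₀ ^ 2) (j : K →+* F) {r : ℕ}
    (hr : Odd r) (hq : q = q₀ ^ r) (σ : RingAut F) (hodd : Odd (orderOf σ)) (hj : ∀ x, σ x = x ↔ x ∈ Set.range j) :
    Nonempty (↥((diagU n F q).range ⊓ Subgroup.centralizer {cAutU 1 σ}) ≃* Cfsg.PGU n K q₀) := by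
  let ρ0 : GU n K q₀ →* MulAut (PSU n F q) := (diagU n F q).comp (embGU hF hK j hr hq n)
  have hρ : ∀ h, ρ0 h ∈ (diagU n F q).range ⊓ Subgroup.centralizer {cAutU 1 σ} := by
    intro h
    refine ⟨⟨_, rfl⟩, Subgroup.mem_centralizer_singleton_iff.2 ?_⟩
    change diagU n F q _ * _ = _ * diagU n F q _
    rw [phiU_comm, mapGU_embGU hF hK j hr hq σ hj]
  let ρ := ρ0.codRestrict _ hρ
  have hsurj : Function.Surjective ρ := by
    rintro ⟨_, ⟨g, rfl⟩, hg⟩
    obtain ⟨b, hb⟩ := (commute_phiU_iff hF hn σ hodd g).1 (Subgroup.mem_centralizer_singleton_iff.1 hg)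
    obtain ⟨h, hh⟩ := exists_of_fixedU hF hK j hr hq σ hj _ hb
    refine ⟨h, Subtype.ext ?_⟩
    change diagU n F q _ = diagU n F q _
    rw [hh, map_mul, diagU_scU, mul_one]
  have hker : ρ.ker = (Cfsg.Geo.scalars (Fin n) K).subgroupOf (Cfsg.GU n K q₀) := by
    ext h
    rw [MonoidHom.mem_ker, Subgroup.mem_subgroupOf]
    have h1 : ρ h = 1 ↔ diagU n F q (embGU hF hK j hr hq n h) = diagU n F q 1 := by
      rw [map_one]
      exact Subtype.ext_iff
    rw [h1, diagU_eq_iff hF hn]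
    simp only [one_mul]
    constructor
    · rintro ⟨c, hc⟩
      have h2 : uU1 σ c = c := by
        have := mapGU_embGU hF hK j hr hq σ hj h
        rw [hc, mapGU_scU] at this
        exact scU_injective (by omega) this
      obtain ⟨y, hy⟩ := (hj (c : Fˣ)).1 (congrArg (fun u : U1 F q => (((u : U1 F q) : Fˣ) : F)) h2)
      have hy0 : y ≠ 0 := by rintro rfl; rw [map_zero] at hy; exact (c : Fˣ).ne_zero hy.symm
      refine ⟨Units.mk0 y hy0, ?_⟩
      apply map_injective_GL j
      change Matrix.GeneralLinearGroup.map j (Matrix.GeneralLinearGroup.scalar (Fin n) (Units.mk0 y hy0)) = _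
      rw [map_scalar, ← show ((scU n F q c : GU n F q) : GL (Fin n) F) = Matrix.GeneralLinearGroup.map j (h : GL (Fin n) K)
        from (congrArg Subtype.val hc).symm, coe_scU]
      congr 1
      apply Units.ext
      exact hy
    · rintro ⟨c, hc⟩
      have hc1 : c ∈ U1 K q₀ := by
        have hc' : Matrix.GeneralLinearGroup.scalar (Fin n) c = (h : GL (Fin n) K) := hc
        rw [← scalar_mem_GU_iff (n := n) (by omega), hc']
        exact h.2
      refine ⟨embU1 hK j hr hq ⟨c, hc1⟩, ?_⟩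
      rw [← embGU_scU hF hK j hr hq]
      congr 1
      exact Subtype.ext hc.symm
  exact ⟨(QuotientGroup.quotientKerEquivOfSurjective ρ hsurj).symm.trans (QuotientGroup.quotientMulEquivOfEq hker)⟩

/-- the number of `T`-classes of standard field automorphisms -/
theorem count_phiU (hF : Fintype.card F = q ^ 2) (hn : 3 ≤ n) (hK : Fintype.card K = q₀ ^ 2) (j : K →+* F) {r : ℕ}
    (hr : Odd r) (hq : q = q₀ ^ r) (σ : RingAut F) (hodd : Odd (orderOf σ)) (hj : ∀ x, σ x = x ↔ x ∈ Set.range j) :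
    Cfsg.splitClassCount (diagU n F q).range (Cfsg.Inn (PSU n F q)) (cAutU 1 σ) = Nat.gcd n ((q + 1) / (q₀ + 1)) := by
  classical
  let A : Subgroup (U1 F q) := (embU1 (F := F) hK j hr hq).range
  have hA : Nat.card A = q₀ + 1 := by
    rw [← Nat.card_congr (MonoidHom.ofInjective (embU1_injective (F := F) hK j hr hq)).toEquiv]
    exact Uni.card_norm_ker hK
  have h1 := index_sup_pow' A n _ hA
  rw [Uni.card_norm_ker hF] at h1
  rw [← h1]
  refine splitClassCount_eq_index (diagU n F q) _ _ rfl ?_ _ (detHom hF n)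
    (detHom_surjective hF (by omega)) (powMonoidHom n : U1 F q →* U1 F q).range _ (fun g => diagU_mem_inn hF hn g) ?_
  · rw [inn_eq hF]
    rintro _ ⟨s, rfl⟩
    exact ⟨_, rfl⟩
  · intro g
    rw [Subgroup.mem_sup]
    constructor
    · rintro ⟨_, ⟨u, rfl⟩, y, hy, hyy⟩
      obtain ⟨k, hk⟩ := detHom_surjective hK (n := n) (by omega) u
      refine ⟨embGU hF hK j hr hq n k, ?_, ?_⟩
      · rw [phiU_comm, mapGU_embGU hF hK j hr hq σ hj]
      · rw [detHom_embGU, hk, ← hyy, mul_comm, inv_mul_cancel_left]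
        exact hy
    · rintro ⟨k, hk, hkk⟩
      obtain ⟨b, hb⟩ := (commute_phiU_iff hF hn σ hodd k).1 hk
      obtain ⟨h, hh⟩ := exists_of_fixedU hF hK j hr hq σ hj _ hb
      refine ⟨embU1 hK j hr hq (detHom hK n h), ⟨_, rfl⟩,
        (detHom hF n g * (detHom hF n k)⁻¹) * (b⁻¹) ^ n, ?_, ?_⟩
      · exact Subgroup.mul_mem _ hkk ⟨b⁻¹, rfl⟩
      · have h2 : embU1 hK j hr hq (detHom hK n h) = detHom hF n k * b ^ n := by
          rw [← detHom_embGU hF, hh, map_mul, detHom_scU]
        rw [h2, inv_pow]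
        calc detHom hF n k * b ^ n * (detHom hF n g * (detHom hF n k)⁻¹ * (b ^ n)⁻¹)
            = detHom hF n g * (detHom hF n k * (detHom hF n k)⁻¹) * (b ^ n * (b ^ n)⁻¹) := by ac_rfl
          _ = _ := by rw [mul_inv_cancel, mul_inv_cancel, mul_one, mul_one]

end emb

end Cfsg.Agent.AutPSU
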