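import Cfsg.Agent.AutPSU.Struct

/-!
Hilbert 90 for `GU_n(q)` with respect to field automorphisms of odd order; conjugacy of field automorphisms of `PSU_n(q)`.
-/

set_option autoImplicit false
set_option linter.unusedSectionVars false

namespace Cfsg.Agent.AutPSU

open Matrix Cfsg.Agent.Uni AutLie AutPSL

variable {F : Type*} [Field F] [Fintype F] {q : ℕ} {n : ℕ}

theorem finite_ringAut : Finite (RingAut F) :=
  Finite.of_injective (fun τ : RingAut F => (τ : F → F)) (fun _ _ h => RingEquiv.ext (congrFun h))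

/-- an automorphism of odd order has fixed points outside the subfield of order `q` -/
theorem exists_fix_ne (hF : Fintype.card F = q ^ 2) (σ : RingAut F) (hodd : Odd (orderOf σ)) :
    ∃ x : F, σ x = x ∧ x ^ q ≠ x := by
  by_contra hcon
  push Not at hcon
  obtain ⟨p, hp⟩ := CharP.exists F
  have : Fact p.Prime := ⟨CharP.char_is_prime F p⟩
  let _ : Algebra (ZMod p) F := ZMod.algebra F p
  set σ' : F ≃ₐ[ZMod p] F := ringAutEquivGal F p σ with hσ'
  set τ' : F ≃ₐ[ZMod p] F := ringAutEquivGal F p (frobQ hF) with hτ'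
  have h1 : τ' ∈ IntermediateField.fixingSubgroup (IntermediateField.fixedField (Subgroup.zpowers σ')) := by
    rw [IntermediateField.mem_fixingSubgroup_iff]
    intro x hx
    exact hcon x (hx ⟨σ', Subgroup.mem_zpowers σ'⟩)
  rw [IntermediateField.fixingSubgroup_fixedField] at h1
  have h2 : orderOf τ' ∣ orderOf σ' := by
    rw [← Nat.card_zpowers σ']
    exact Subgroup.orderOf_dvd_natCard _ h1
  have h3 : orderOf τ' = 2 := by
    have := orderOf_injective (ringAutEquivGal F p).toMonoidHom (ringAutEquivGal F p).injective (frobQ hF)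
    have h4 : orderOf (frobQ hF) = 2 := orderOf_eq_prime (frobQ_sq hF) (frobQ_ne_one hF)
    rw [← h4]; exact this
  have h4 : orderOf σ' = orderOf σ :=
    orderOf_injective (ringAutEquivGal F p).toMonoidHom (ringAutEquivGal F p).injective σ
  rw [h3, h4] at h2
  exact (Nat.not_even_iff_odd.2 hodd) (even_iff_two_dvd.2 h2)

/-- the fixed field -/
def fixF (σ : F ≃+* F) : Subfield F where
  carrier := {x | σ x = x}
  mul_mem' := by intro a b ha hb; show σ (a * b) = _; rw [map_mul, ha, hb]
  one_mem' := map_one σ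
  add_mem' := by intro a b ha hb; show σ (a + b) = _; rw [map_add, ha, hb]
  zero_mem' := map_zero σ
  neg_mem' := by intro a ha; show σ (-a) = _; rw [map_neg, ha]
  inv_mem' := by intro a ha; show σ a⁻¹ = _; rw [map_inv₀, ha]

/-- the `q`-power map on the fixed field -/
def conjFix (hF : Fintype.card F = q ^ 2) (σ : F ≃+* F) : fixF σ ≃+* fixF σ where
  toFun x := ⟨(x : F) ^ q, by show σ _ = _; rw [map_pow, x.2]⟩
  invFun x := ⟨(x : F) ^ q, by show σ _ = _; rw [map_pow, x.2]⟩
  left_inv x := Subtype.ext (pow_q_pow_q hF _)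
  right_inv x := Subtype.ext (pow_q_pow_q hF _)
  map_mul' x y := Subtype.ext (mul_pow _ _ _)
  map_add' x y := Subtype.ext (add_pow_q hF _ _)

/-- the twisting automorphism whose fixed points are the unitary matrices -/
noncomputable def theta (hF : Fintype.card F = q ^ 2) (g : GL (Fin n) F) : GL (Fin n) F := mapGL (frobQ hF) (invTGL g)

theorem theta_mul (hF : Fintype.card F = q ^ 2) (g h : GL (Fin n) F) : theta hF (g * h) = theta hF g * theta hF h := by
  rw [theta, invTGL_mul, map_mul]; rfl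

theorem theta_inv (hF : Fintype.card F = q ^ 2) (g : GL (Fin n) F) : theta hF g⁻¹ = (theta hF g)⁻¹ := by
  rw [eq_inv_iff_mul_eq_one, ← theta_mul, inv_mul_cancel]
  apply Units.ext
  rw [theta, coe_mapGL, coe_invTGL]
  simp

theorem theta_theta (hF : Fintype.card F = q ^ 2) (g : GL (Fin n) F) : theta hF (theta hF g) = g := by
  apply Units.ext
  rw [theta, theta, coe_mapGL, coe_invTGL, coe_mapGL_inv, coe_invTGL_inv]
  ext i j
  exact Uni.conjHom_involutive hF _

theorem theta_map (hF : Fintype.card F = q ^ 2) (σ : F ≃+* F) (g : GL (Fin n) F) :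
    theta hF (mapGL σ g) = mapGL σ (theta hF g) := by
  apply Units.ext
  rw [theta, theta, coe_mapGL, coe_invTGL, coe_mapGL_inv, coe_mapGL, coe_mapGL, coe_invTGL]
  ext i j
  simp only [Matrix.map_apply, Matrix.transpose_apply, frobQ_apply, map_pow]

theorem mem_GU_iff_theta (hF : Fintype.card F = q ^ 2) (g : GL (Fin n) F) : g ∈ GU n F q ↔ theta hF g = g :=
  mem_GU_iff hF g

/-- Hilbert 90 for the unitary group -/
theorem hilbert90_GU (hF : Fintype.card F = q ^ 2) (σ : RingAut F) (hodd : Odd (orderOf σ)) (A : GU n F q)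
    (hA : twNorm (mapGU σ) A (orderOf σ) = 1) : ∃ B : GU n F q, A = B * (mapGU σ B)⁻¹ := by
  have hfin := finite_ringAut (F := F)
  have hr : 0 < orderOf σ := orderOf_pos σ
  have hA' : twNorm (mapGL σ) (A : GL (Fin n) F) (orderOf σ) = 1 := by
    have : ∀ k, twNorm (mapGL σ) (A : GL (Fin n) F) k = ((twNorm (mapGU σ) A k : GU n F q) : GL (Fin n) F) := by
      intro k
      induction k with
      | zero => rfl
      | succ k ih => rw [twNorm_succ, twNorm_succ, ih]; rfl
    rw [this, hA]; rfl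
  obtain ⟨B, hB⟩ := hilbert90 (A : GL (Fin n) F) σ hr hA'
  set H := B⁻¹ * theta hF B with hH
  have hθA : theta hF (A : GL (Fin n) F) = A := (mem_GU_iff_theta hF _).1 A.2
  have hσH : mapGL σ H = H := by
    rw [hB, theta_mul, theta_inv, theta_map] at hθA
    rw [hH, map_mul, map_inv]
    -- `θB (σ θB)⁻¹ = B (σ B)⁻¹`
    have e : (mapGL σ B)⁻¹ * mapGL σ (theta hF B) = B⁻¹ * theta hF B := by
      have h1 : theta hF B = B * (mapGL σ B)⁻¹ * mapGL σ (theta hF B) := by
        rw [← hθA]; group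
      conv_rhs => rw [h1]
      group
    exact e
  have hθH : theta hF H = H⁻¹ := by
    rw [hH, theta_mul, theta_inv, theta_theta, _root_.mul_inv_rev, inv_inv]
  -- descend to the fixed field
  let j : fixF σ →+* F := (fixF σ).subtype
  have hj : ∀ x, σ x = x ↔ x ∈ Set.range j := by
    intro x
    constructor
    · intro h; exact ⟨⟨x, h⟩, rfl⟩
    · rintro ⟨y, rfl⟩; exact y.2
  obtain ⟨H0, hH0⟩ := exists_of_fixed j σ hj H hσH
  have hent : ∀ i k, (H : Matrix (Fin n) (Fin n) F) i k = ((H0 : Matrix (Fin n) (Fin n) (fixF σ)) i k : F) := by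
    intro i k; rw [← hH0]; rfl
  have hherm : ∀ i k, ((H : Matrix (Fin n) (Fin n) F) i k) ^ q = (H : Matrix (Fin n) (Fin n) F) k i := by
    intro i k
    have h1 : theta hF H⁻¹ = H := by rw [theta_inv, hθH, inv_inv]
    have h2 := congrArg (fun g : GL (Fin n) F => (g : Matrix (Fin n) (Fin n) F) k i) h1
    have h3 : ((theta hF H⁻¹ : GL (Fin n) F) : Matrix (Fin n) (Fin n) F) k i =
      ((H : Matrix (Fin n) (Fin n) F) i k) ^ q := by
      rw [theta, coe_mapGL, coe_invTGL, inv_inv]
      rfl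
    rw [← h3]; exact h2
  obtain ⟨C0, hC0⟩ := exists_herm_eq (conjFix hF σ) (by
    intro h
    obtain ⟨x, hx, hx'⟩ := exists_fix_ne hF σ hodd
    apply hx'
    have := congrArg (fun τ : fixF σ ≃+* fixF σ => ((τ ⟨x, hx⟩ : fixF σ) : F)) h
    exact this) (fun a => Subtype.ext (pow_q_pow_q hF _)) H0 (by
      intro i k
      apply Subtype.ext
      show ((H0 : Matrix (Fin n) (Fin n) (fixF σ)) i k : F) ^ q = _
      rw [← hent, ← hent, hherm])
  set C := Matrix.GeneralLinearGroup.map j C0 with hC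
  have hσC : mapGL σ C = C := mapGL_map j σ hj C0
  have hHC : H = C * (theta hF C)⁻¹ := by
    rw [← hH0, hC0, map_mul, map_inv]
    congr 2
  refine ⟨⟨B * C, ?_⟩, ?_⟩
  · rw [mem_GU_iff_theta hF, theta_mul]
    have h1 : theta hF B = B * H := by rw [hH]; group
    rw [h1, hHC]
    group
  · apply Subtype.ext
    change (A : GL (Fin n) F) = B * C * (mapGL σ (B * C))⁻¹
    rw [map_mul, hσC, hB]
    group

/-- the action of a field automorphism on the norm one group -/
def uU1 (σ : F ≃+* F) : U1 F q →* U1 F q where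
  toFun c := ⟨uMap σ c, by
    rw [mem_U1, coe_uMap, ← map_pow, mem_U1.1 c.2, map_one]⟩
  map_one' := Subtype.ext (map_one _)
  map_mul' _ _ := Subtype.ext (map_mul _ _ _)

@[simp] theorem coe_uU1 (σ : F ≃+* F) (c : U1 F q) : ((uU1 σ c : U1 F q) : Fˣ) = uMap σ c := rfl

theorem uU1_iterate (σ : RingAut F) (k : ℕ) (c : U1 F q) : (uU1 σ)^[k] c = uU1 (σ ^ k : RingAut F) c := by
  induction k with
  | zero => rfl
  | succ k ih =>
    rw [Function.iterate_succ_apply', ih, pow_succ']
    rfl

theorem mapGU_scU (σ : F ≃+* F) (c : U1 F q) : mapGU σ (scU n F q c) = scU n F q (uU1 σ c) := by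
  apply Subtype.ext
  exact mapGL_scalar σ (c : Fˣ)

theorem twNorm_scU (σ : F ≃+* F) (c : U1 F q) (k : ℕ) :
    twNorm (mapGU σ) (scU n F q c) k = scU n F q (twNorm (uU1 σ) c k) := by
  induction k with
  | zero => simp [twNorm]
  | succ k ih => rw [twNorm_succ, ih, mapGU_scU, twNorm_succ, map_mul]

theorem detHom_mapGU (hF : Fintype.card F = q ^ 2) (σ : F ≃+* F) (g : GU n F q) :
    detHom hF n (mapGU σ g) = uU1 σ (detHom hF n g) := by
  apply Subtype.ext
  exact det_mapGL σ (g : GL (Fin n) F)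

theorem hilbert90_U1 (hF : Fintype.card F = q ^ 2) (σ : RingAut F) (hodd : Odd (orderOf σ)) (c : U1 F q)
    (hc : twNorm (uU1 σ) c (orderOf σ) = 1) : ∃ b : U1 F q, c = b * (uU1 σ b)⁻¹ := by
  obtain ⟨B, hB⟩ := hilbert90_GU hF σ hodd (scU 1 F q c) (by rw [twNorm_scU, hc, map_one])
  refine ⟨detHom hF 1 B, ?_⟩
  have := congrArg (detHom hF 1) hB
  rwa [detHom_scU, pow_one, map_mul, map_inv, detHom_mapGU] at this

theorem norm_surj_U1 (hF : Fintype.card F = q ^ 2) (σ : RingAut F) (hodd : Odd (orderOf σ)) (c : U1 F q)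
    (hc : uU1 σ c = c) : ∃ w : U1 F q, twNorm (uU1 σ) w (orderOf σ) = c := by
  refine norm_surj (uU1 σ) (orderOf σ) ?_ (fun m hm => hilbert90_U1 hF σ hodd m hm) c hc
  intro m
  rw [uU1_iterate, pow_orderOf_eq_one]
  rfl

theorem mapGU_iterate (σ : RingAut F) (k : ℕ) (g : GU n F q) : (mapGU σ)^[k] g = mapGU (σ ^ k : RingAut F) g := by
  induction k with
  | zero =>
    apply GU_ext
    ext i j; rfl
  | succ k ih =>
    rw [Function.iterate_succ_apply', ih, pow_succ']
    apply GU_ext
    ext i j; rfl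

theorem mapGU_one (g : GU n F q) : mapGU (1 : RingAut F) g = g := by
  apply GU_ext; ext i j; rfl

/-- `δφ` of the same order as the standard field automorphism `φ` is conjugate to it -/
theorem field_langU (hF : Fintype.card F = q ^ 2) (hn : 3 ≤ n) (σ : RingAut F) (hodd : Odd (orderOf σ)) (A : GU n F q)
    (h : (diagU n F q A * cAutU 1 σ) ^ (orderOf σ) = 1) :
    ∃ B, diagU n F q A * cAutU 1 σ = diagU n F q B * cAutU 1 σ * (diagU n F q B)⁻¹ := by
  have hfin := finite_ringAut (F := F)
  have hr : 0 < orderOf σ := orderOf_pos σ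
  rw [pow_eq_twNorm (diagU n F q) (mapGU σ) (cAutU 1 σ) (phiU_comm σ), cAutU_one_pow, pow_orderOf_eq_one] at h
  have h1 : diagU n F q (twNorm (mapGU σ) A (orderOf σ)) = diagU n F q 1 := by
    rw [map_one, ← h, show (cAutU (1 : GU n F q) (1 : RingAut F) : MulAut (PSU n F q)) = 1 from cAutU_one, mul_one]
  rw [diagU_eq_iff hF hn] at h1
  obtain ⟨c, hc⟩ := h1
  rw [one_mul] at hc
  have hcfix : uU1 σ c = c := by
    have e1 := twNorm_succ (mapGU σ) A (orderOf σ)
    have e2 := twNorm_succ' (mapGU σ).toMonoidHom A (orderOf σ)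
    change twNorm (mapGU σ) A (orderOf σ + 1) = twNorm (mapGU σ) A (orderOf σ) * (mapGU σ)^[orderOf σ] A at e2
    rw [mapGU_iterate, pow_orderOf_eq_one, mapGU_one, e1, hc, mapGU_scU, scU_comm] at e2
    exact scU_injective (by omega) (mul_left_cancel e2)
  obtain ⟨w, hw⟩ := norm_surj_U1 hF σ hodd c hcfix
  obtain ⟨B, hB⟩ := hilbert90_GU hF σ hodd (A * scU n F q w⁻¹) (by
    have := twNorm_mul_central (mapGU σ).toMonoidHom A (scU n F q w⁻¹) (orderOf σ)
      (by
        intro k
        change (mapGU σ)^[k] _ ∈ _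
        rw [mapGU_iterate, mapGU_scU]
        exact Subgroup.mem_center_iff.2 fun g => (scU_comm _ _).symm)
    change twNorm (mapGU σ) _ (orderOf σ) = twNorm (mapGU σ) _ (orderOf σ) * twNorm (mapGU σ) _ (orderOf σ) at this
    rw [this, hc, twNorm_scU, ← map_mul]
    have e : twNorm (uU1 σ) w⁻¹ (orderOf σ) = c⁻¹ := by
      rw [← hw]
      have : ∀ k, twNorm (uU1 σ) w⁻¹ k = (twNorm (uU1 σ) w k)⁻¹ := by
        intro k
        induction k with
        | zero => simp [twNorm]
        | succ k ih => rw [twNorm_succ, twNorm_succ, ih, map_inv, mul_inv]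
      exact this _
    rw [e, mul_inv_cancel, map_one])
  refine ⟨B, ?_⟩
  rw [← map_inv, mul_assoc, phiU_comm, ← mul_assoc, ← map_mul, map_inv (mapGU σ), ← hB, map_mul, diagU_scU, mul_one]

end Cfsg.Agent.AutPSU
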